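import Cfsg.Agent.H264.FKS.Res
import Cfsg.Agent.H436.Names
import Cfsg.Agent.S0818

/-!
# S4785 (TEAM ODDM), B-ROW: the own-characteristic survivor `PΩ⁻_{2n}(q) < Ω_{2n+1}(q)` has even index (helper270)
-/

set_option autoImplicit false

namespace Cfsg.Agent.H270.Odm

open Cfsg Cfsg.Agent.OrdDiv Cfsg.Agent.H436

theorem two_pow_dvd {p : ℕ} (hp : Odd p) (k : ℕ) : 2 ^ (k + 3) ∣ p ^ (2 ^ (k + 1)) - 1 := by
  induction k with
  | zero =>
    have h := Nat.eight_dvd_sq_sub_one_of_odd hp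
    exact h
  | succ k ih =>
    have h1 : p ^ (2 ^ (k + 1 + 1)) - 1 = (p ^ (2 ^ (k + 1)) + 1) * (p ^ (2 ^ (k + 1)) - 1) := by
      have h2 : p ^ (2 ^ (k + 1 + 1)) = (p ^ (2 ^ (k + 1))) ^ 2 := by rw [← pow_mul, ← pow_succ]
      rw [h2, ← Nat.sq_sub_sq, one_pow]
    rw [h1, show k + 1 + 3 = 1 + (k + 3) by ring, pow_add, pow_one]
    refine Nat.mul_dvd_mul ?_ ih
    exact (hp.pow.add_odd odd_one).two_dvd

/-- the arithmetic: `|T| = |S| q^n (q^n - 1)` -/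
theorem card_eq {q n t s : ℕ} (hq : Odd q) (hn : 1 ≤ n) (he : Even n) (hT : 2 * t = q ^ (n ^ 2) * prB q n)
    (hS : Nat.gcd 4 (q ^ n + 1) * s = q ^ (n * (n - 1)) * ((q ^ n + 1) * prB q (n - 1))) :
    t = s * (q ^ n * (q ^ n - 1)) := by
  obtain ⟨m, rfl⟩ : ∃ m, n = m + 1 := ⟨n - 1, by omega⟩
  have h1 : q ^ (m + 1) % 4 = 1 := by
    obtain ⟨k, hk⟩ := he
    rw [hk, ← two_mul, pow_mul]
    have h2 := Nat.eight_dvd_sq_sub_one_of_odd hq
    have h3 : 0 < q ^ 2 := pow_pos hq.pos 2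
    have h4 : q ^ 2 % 4 = 1 := by omega
    rw [Nat.pow_mod, h4, one_pow]
    norm_num
  have h2 : Nat.gcd 4 (q ^ (m + 1) + 1) = 2 := by
    rw [Nat.gcd_rec]
    have h3 : (q ^ (m + 1) + 1) % 4 = 2 := by omega
    rw [h3]
    decide
  have h3 : prB q (m + 1) = prB q m * (q ^ (2 * (m + 1)) - 1) := by
    unfold prB
    rw [List.range_succ, List.map_append, List.prod_append]
    simp
  have h4 : q ^ (2 * (m + 1)) - 1 = (q ^ (m + 1) + 1) * (q ^ (m + 1) - 1) := by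
    have h5 : q ^ (2 * (m + 1)) = (q ^ (m + 1)) ^ 2 := by rw [← pow_mul, mul_comm]
    rw [h5, ← Nat.sq_sub_sq, one_pow]
  rw [h2, Nat.add_sub_cancel] at hS
  rw [h3, h4] at hT
  have h5 : q ^ ((m + 1) ^ 2) = q ^ ((m + 1) * m) * q ^ (m + 1) := by rw [← pow_add]; congr 1; ring
  rw [h5] at hT
  have h6 : 2 * t = 2 * (s * (q ^ (m + 1) * (q ^ (m + 1) - 1))) := by
    calc 2 * t = q ^ ((m + 1) * m) * ((q ^ (m + 1) + 1) * prB q m) * (q ^ (m + 1) * (q ^ (m + 1) - 1)) := by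
          rw [hT]; ring
      _ = _ := by rw [← hS]; ring
  omega

theorem no_own_num {p f n t s r i : ℕ} (hp : Odd p) (hf : 1 ≤ f) (he : Even n) (hs : 0 < s)
    (ht : t = s * ((p ^ f) ^ n * ((p ^ f) ^ n - 1))) (hr : r ∣ 4 * f * s) (hi : r * i = t) (hodd : Odd i) : False := by
  obtain ⟨a, b, hb, hab⟩ := Nat.exists_eq_two_pow_mul_odd (n := f) (by omega)
  have h1 : s * ((p ^ f) ^ n * ((p ^ f) ^ n - 1)) ∣ s * (4 * f * i) := by
    rw [← ht, ← hi]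
    obtain ⟨c, hc⟩ := hr
    exact ⟨c, by rw [show s * (4 * f * i) = (4 * f * s) * i by ring, hc]; ring⟩
  have h2 : (p ^ f) ^ n - 1 ∣ 4 * f * i := (Dvd.intro_left _ rfl).trans ((Nat.mul_dvd_mul_iff_left hs).1 h1)
  have h3 : p ^ (2 ^ (a + 1)) - 1 ∣ (p ^ f) ^ n - 1 := by
    obtain ⟨c, hc⟩ := he
    have h4 : (p ^ f) ^ n = (p ^ (2 ^ (a + 1))) ^ (b * c) := by
      rw [← pow_mul, ← pow_mul, hab, hc]
      congr 1
      ring
    rw [h4]
    have h5 := Nat.sub_dvd_pow_sub_pow (p ^ (2 ^ (a + 1))) 1 (b * c)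
    rwa [one_pow] at h5
  have h4 : 2 ^ (a + 3) ∣ 4 * f * i := (two_pow_dvd hp a).trans (h3.trans h2)
  have h5 : 2 ^ (a + 3) ∣ 4 * f := (Nat.Coprime.pow_left _ (Nat.coprime_two_left.2 hodd)).dvd_of_dvd_mul_right h4
  rw [hab, show 4 * (2 ^ a * b) = 2 ^ (a + 2) * b by ring, pow_succ, Nat.mul_dvd_mul_iff_left (by positivity)] at h5
  exact (Nat.not_even_iff_odd.2 hb) (even_iff_two_dvd.2 h5)

/-- **the survivor `PΩ⁻_{2n}(q)` has even index** -/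
theorem no_own {T : Type} [Group T] [Finite T] {p f n : ℕ} (hp : p.Prime) (hp2 : p ≠ 2) (hf : 1 ≤ f) (hn : 4 ≤ n)
    (he : Even n) (hT : IsNamed (.oodd n (p ^ f)) T) {R : Subgroup T} (hR : Odd R.index) (S : Subgroup R) [S.Normal]
    (hC : Subgroup.centralizer (S : Set R) = ⊥) (hS : IsNamed (.ominus n (p ^ f)) S) : False := by
  have hpo : Odd p := hp.odd_of_ne_two hp2
  have h1 : Nat.card R ∣ Nat.card (MulAut S) := H264.FKS.dvd_aut S hC
  obtain ⟨F, hF1, hF2, a, b, hF, hab, ⟨e⟩⟩ := hS.real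
  have : Fact p.Prime := ⟨hp⟩
  have h2 := S0818.result p f hf hF n hn a b hab
  rw [if_neg hp2, if_pos, ← Nat.card_congr (MulAut.congr e).toEquiv, ← Nat.card_congr e.toEquiv] at h2
  · rw [h2] at h1
    exact no_own_num hpo hf he Nat.card_pos (card_eq hpo.pow (by omega) he hT.eq hS.eq) h1 R.card_mul_index hR
  · obtain ⟨c, hc⟩ := he
    obtain ⟨d, hd⟩ : Odd (p ^ f) := hpo.pow
    rw [hc, hd]
    exact ⟨c * d, by rw [Nat.add_sub_cancel, show (c + c) * (2 * d) = 2 * (c * d + c * d) by ring,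
      Nat.mul_div_cancel_left _ (by norm_num)]⟩

end Cfsg.Agent.H270.Odm
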